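import Cfsg.Agent.KZ.Loc.Pat
import Cfsg.Agent.KZ.Red.Iface

/-!
# KZ, box SMALLK (helper90)
-/

set_option autoImplicit false

namespace Cfsg.Agent.KZ.Loc

/-- **SMALLK** -/
theorem smallK : Red.SmallK := fun _ _ _ h3 => ⟨k_three h3, k_one, k_two h3, k_four h3⟩

end Cfsg.Agent.KZ.Loc
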